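import Cfsg.Agent.H274.IF.Phi
import Cfsg.Agent.H76.Num
import Cfsg.Agent.H75.OddGeo

/-!
# Number of vectors of each norm for a nondegenerate quadratic form, odd characteristic (helper63)
-/

set_option autoImplicit false

namespace Cfsg.Agent.H63.IF

open QuadraticMap Cfsg.Agent.LieClassical.OrthCore Cfsg.Agent.LieClassical.OrthTrans
open Cfsg.Agent.LieClassical.OrthFinite
open Cfsg.Agent.H274.IF (Wp Qp mem_Wp nondeg_Qp finrank_Wp)

universe u v

section step

variable {F : Type u} {V : Type v} [Field F] [AddCommGroup V] [Module F V] {Q : QuadraticForm F V}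
variable [Finite F] [FiniteDimensional F V]

theorem ncard_hyp (hQ : Nondeg Q) {e f : V} (h : Hyp Q e f) (c : F) :
    {v : V | Q v = c}.ncard = Nat.card F * {w : Wp Q e f | Qp Q e f w = c}.ncard +
      (Nat.card F - 1) * Nat.card F ^ (Module.finrank F V - 2) := by
  have : Finite V := Module.finite_of_finite F
  have h1 := Cfsg.Agent.H75.OrthIdx.ncard_norm_perp_sing hQ h c
  have h2 := Cfsg.Agent.H76.Num.ncard_W (Q := Q) h c
  have h3 : Cfsg.Agent.H76.Act.W Q e f = Wp Q e f := by
    ext v
    rw [Cfsg.Agent.H76.Act.mem_W, mem_Wp]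
  have h4 : ∀ S S' : Submodule F V, S = S' → {w : S | Q (w : V) = c}.ncard = {w : S' | Q (w : V) = c}.ncard := by
    rintro S S' rfl
    rfl
  rw [h4 _ _ h3] at h2
  rw [← h1, h2]
  rfl

end step

/-- the numbers of vectors of each norm -/
def Cts (F : Type u) (V : Type v) [Field F] [AddCommGroup V] [Module F V] (Q : QuadraticForm F V) (d : ℕ) : Prop :=
  (∀ m, d = 2 * m + 1 → {v : V | Q v = 0}.ncard = Nat.card F ^ (2 * m) ∧
      ∀ c : F, c ≠ 0 → Nat.card F ^ (2 * m) ≤ {v : V | Q v = c}.ncard + Nat.card F ^ m) ∧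
    ∀ m, d = 2 * m + 2 →
      ({v : V | Q v = 0}.ncard + Nat.card F ^ m = Nat.card F ^ (2 * m + 1) + Nat.card F ^ (m + 1) ∧
        ∀ c : F, c ≠ 0 → {v : V | Q v = c}.ncard + Nat.card F ^ m = Nat.card F ^ (2 * m + 1)) ∨
      ({v : V | Q v = 0}.ncard + Nat.card F ^ (m + 1) = Nat.card F ^ (2 * m + 1) + Nat.card F ^ m ∧
        ∀ c : F, c ≠ 0 → {v : V | Q v = c}.ncard = Nat.card F ^ (2 * m + 1) + Nat.card F ^ m)

section base

variable {F : Type u} {V : Type v} [Field F] [AddCommGroup V] [Module F V] {Q : QuadraticForm F V}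
variable [Finite F] [FiniteDimensional F V]

omit [FiniteDimensional F V] [Finite F] in
theorem ncard_aniso (h : ∀ v, Q v = 0 → v = 0) : {v : V | Q v = 0}.ncard = 1 := by
  have h1 : {v : V | Q v = 0} = {0} := by
    ext v
    rw [Set.mem_singleton_iff]
    constructor
    · exact h v
    · rintro rfl
      exact QuadraticMap.map_zero Q
  rw [h1, Set.ncard_singleton]

omit [FiniteDimensional F V] [Finite F] in
theorem aniso_line (hQ : Nondeg Q) (hd : Module.finrank F V = 1) (v : V) (hv : Q v = 0) :
    v = 0 := by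
  by_contra hv0
  apply hv0
  apply hQ
  intro y
  obtain ⟨c, rfl⟩ := (finrank_eq_one_iff_of_nonzero' v hv0).1 hd y
  rw [polar_smul_right, QuadraticMap.polar_self, hv]
  simp

theorem ncard_plane (hQ0 : ∀ v, Q v = 0 → v = 0) (hd : Module.finrank F V = 2) (c : F) (hc : c ≠ 0) :
    {v : V | Q v = c}.ncard = Nat.card F + 1 := by
  have := Fintype.ofFinite F
  let b := Module.finBasisOfFinrankEq F V hd
  have hb0 : b 0 ≠ 0 := b.ne_zero 0
  have hα : Q (b 0) ≠ 0 := fun h => hb0 (hQ0 _ h)
  set α := Q (b 0)
  set β := polar Q (b 0) (b 1)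
  set γ := Q (b 1)
  have hform : ∀ z : Fin 2 → F, Q (b.equivFun.symm z) = α * Cfsg.Agent.H76.BinCount.bf (β / α) (γ / α) z := by
    intro z
    rw [Module.Basis.equivFun_symm_apply, Fin.sum_univ_two, Q_add, QuadraticMap.map_smul, QuadraticMap.map_smul,
      polar_smul_left, polar_smul_right]
    simp only [Cfsg.Agent.H76.BinCount.bf, smul_eq_mul]
    field_simp
    ring
  have hab : ∀ z₁ z₂ : F, z₁ ^ 2 + (β / α) * z₁ * z₂ + (γ / α) * z₂ ^ 2 = 0 → z₁ = 0 ∧ z₂ = 0 := by
    intro z₁ z₂ hz
    have h1 : Q (b.equivFun.symm ![z₁, z₂]) = 0 := by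
      rw [hform]
      have h3 : Cfsg.Agent.H76.BinCount.bf (β / α) (γ / α) ![z₁, z₂] = 0 := hz
      rw [h3, mul_zero]
    have h3 := hQ0 _ h1
    have h4 : (![z₁, z₂] : Fin 2 → F) = 0 := by
      apply b.equivFun.symm.injective
      rw [h3, map_zero]
    exact ⟨congrFun h4 0, congrFun h4 1⟩
  have h1 := Cfsg.Agent.H76.BinCount.card_bf hab (c := c / α) (div_ne_zero hc hα)
  rw [Nat.card_eq_fintype_card (α := F), ← h1]
  have h5 : Nat.card {v : V // Q v = c} = Nat.card {z : Fin 2 → F // Cfsg.Agent.H76.BinCount.bf (β / α) (γ / α) z = c / α} := by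
    refine Nat.card_congr ((b.equivFun.toEquiv).subtypeEquiv ?_)
    intro v
    have h6 := hform (b.equivFun v)
    rw [LinearEquiv.symm_apply_apply] at h6
    show Q v = c ↔ Cfsg.Agent.H76.BinCount.bf (β / α) (γ / α) (b.equivFun v) = c / α
    rw [h6, eq_div_iff hα, mul_comm]
  exact h5

end base

theorem counts {F : Type u} [Field F] [Finite F] (d : ℕ) :
    ∀ (V : Type v) [AddCommGroup V] [Module F V] [FiniteDimensional F V] (Q : QuadraticForm F V), Nondeg Q →
      Module.finrank F V = d → Cts F V Q d := by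
  induction d using Nat.strong_induction_on with
  | _ d ih =>
    intro V _ _ _ Q hQ hd
    have hq : 2 ≤ Nat.card F := Finite.one_lt_card
    -- the inductive step from a hyperbolic pair
    have hstep : ∀ e f : V, Hyp Q e f → 3 ≤ d → Cts F V Q d := by
      intro e f h h3
      have hW := ih (d - 2) (by omega) (Wp Q e f) (Qp Q e f) (nondeg_Qp hQ h) (by
        have := finrank_Wp (Q := Q) h
        omega)
      obtain ⟨q', hq'⟩ : ∃ q', Nat.card F = q' + 1 := ⟨Nat.card F - 1, by omega⟩
      constructor
      · intro m hm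
        obtain ⟨m, rfl⟩ : ∃ m', m = m' + 1 := ⟨m - 1, by omega⟩
        obtain ⟨h4, h5⟩ := hW.1 m (by omega)
        have e1 : Module.finrank F V - 2 = 2 * m + 1 := by omega
        refine ⟨?_, fun c hc => ?_⟩
        · rw [ncard_hyp hQ h, h4, e1, hq', Nat.add_sub_cancel]
          ring
        · have h6 := Nat.mul_le_mul_left (Nat.card F) (h5 c hc)
          rw [ncard_hyp hQ h, e1]
          rw [hq'] at h6 ⊢
          rw [Nat.add_sub_cancel]
          have e2 : (q' + 1) ^ (2 * (m + 1)) = (q' + 1) * (q' + 1) ^ (2 * m) + q' * (q' + 1) ^ (2 * m + 1) := by ring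
          have e3 : (q' + 1) ^ (m + 1) = (q' + 1) * (q' + 1) ^ m := by ring
          rw [e2, e3]
          rw [mul_add] at h6
          omega
      · intro m hm
        obtain ⟨m, rfl⟩ : ∃ m', m = m' + 1 := ⟨m - 1, by omega⟩
        have e1 : Module.finrank F V - 2 = 2 * m + 2 := by omega
        rcases hW.2 m (by omega) with ⟨h4, h5⟩ | ⟨h4, h5⟩
        · left
          refine ⟨?_, fun c hc => ?_⟩
          · have h6 := congrArg (fun x => Nat.card F * x) h4
            simp only [mul_add] at h6
            rw [ncard_hyp hQ h, e1]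
            rw [hq'] at h6 ⊢
            rw [Nat.add_sub_cancel]
            have e2 : (q' + 1) ^ (2 * (m + 1) + 1) = (q' + 1) * (q' + 1) ^ (2 * m + 1) + q' * (q' + 1) ^ (2 * m + 2) := by
              ring
            have e3 : (q' + 1) ^ (m + 1) = (q' + 1) * (q' + 1) ^ m := by ring
            have e4 : (q' + 1) ^ (m + 1 + 1) = (q' + 1) * (q' + 1) ^ (m + 1) := by ring
            rw [e2, e4]
            rw [e3] at h6 ⊢
            linarith
          · have h6 := congrArg (fun x => Nat.card F * x) (h5 c hc)
            simp only [mul_add] at h6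
            rw [ncard_hyp hQ h, e1]
            rw [hq'] at h6 ⊢
            rw [Nat.add_sub_cancel]
            have e2 : (q' + 1) ^ (2 * (m + 1) + 1) = (q' + 1) * (q' + 1) ^ (2 * m + 1) + q' * (q' + 1) ^ (2 * m + 2) := by
              ring
            have e3 : (q' + 1) ^ (m + 1) = (q' + 1) * (q' + 1) ^ m := by ring
            rw [e2, e3]
            omega
        · right
          refine ⟨?_, fun c hc => ?_⟩
          · have h6 := congrArg (fun x => Nat.card F * x) h4
            simp only [mul_add] at h6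
            rw [ncard_hyp hQ h, e1]
            rw [hq'] at h6 ⊢
            rw [Nat.add_sub_cancel]
            have e2 : (q' + 1) ^ (2 * (m + 1) + 1) = (q' + 1) * (q' + 1) ^ (2 * m + 1) + q' * (q' + 1) ^ (2 * m + 2) := by
              ring
            have e3 : (q' + 1) ^ (m + 1) = (q' + 1) * (q' + 1) ^ m := by ring
            have e4 : (q' + 1) ^ (m + 1 + 1) = (q' + 1) * (q' + 1) ^ (m + 1) := by ring
            rw [e2, e4]
            rw [e3] at h6 ⊢
            linarith
          · have h6 := congrArg (fun x => Nat.card F * x) (h5 c hc)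
            simp only [mul_add] at h6
            rw [ncard_hyp hQ h, e1]
            rw [hq'] at h6 ⊢
            rw [Nat.add_sub_cancel]
            have e2 : (q' + 1) ^ (2 * (m + 1) + 1) = (q' + 1) * (q' + 1) ^ (2 * m + 1) + q' * (q' + 1) ^ (2 * m + 2) := by
              ring
            have e3 : (q' + 1) ^ (m + 1) = (q' + 1) * (q' + 1) ^ m := by ring
            rw [e2, e3]
            omega
    by_cases h3 : 3 ≤ d
    · obtain ⟨x, -, hx0, hxQ⟩ := exists_sing_mem (Q := Q) (⊤ : Submodule F V) (by rw [finrank_top]; omega)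
      obtain ⟨f, h⟩ := Cfsg.Agent.LieClassical.OrthTrans.exists_hyp hQ hxQ hx0
      exact hstep x f h h3
    by_cases hd0 : d = 0
    · constructor <;> intro m hm <;> omega
    by_cases hd1 : d = 1
    · have hz := ncard_aniso (Q := Q) (aniso_line hQ (by omega))
      constructor
      · intro m hm
        obtain rfl : m = 0 := by omega
        refine ⟨by rw [hz]; simp, fun c hc => ?_⟩
        simp
      · intro m hm; omega
    have hd2 : d = 2 := by omega
    constructor
    · intro m hm; omega
    · intro m hm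
      obtain rfl : m = 0 := by omega
      by_cases han : ∀ v, Q v = 0 → v = 0
      · right
        have hz := ncard_aniso (Q := Q) han
        refine ⟨?_, fun c hc => ?_⟩
        · rw [hz]; simp; ring
        · rw [ncard_plane han (by omega) c hc]; simp
      · left
        push Not at han
        obtain ⟨x, hxQ, hx0⟩ := han
        obtain ⟨f, h⟩ := Cfsg.Agent.LieClassical.OrthTrans.exists_hyp hQ hxQ hx0
        have hW : Module.finrank F (Wp Q x f) = 0 := by
          have := finrank_Wp (Q := Q) h
          omega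
        have hsub : Subsingleton (Wp Q x f) := Module.finrank_zero_iff.1 hW
        have e1 : Module.finrank F V - 2 = 0 := by omega
        have hz : {w : Wp Q x f | Qp Q x f w = 0}.ncard = 1 := ncard_aniso fun v _ => Subsingleton.elim _ _
        have hc0 : ∀ c : F, c ≠ 0 → {w : Wp Q x f | Qp Q x f w = c}.ncard = 0 := by
          intro c hc
          have h4 : {w : Wp Q x f | Qp Q x f w = c} = ∅ := by
            ext w
            simp only [Set.mem_ofPred_eq, Set.mem_empty_iff_false, iff_false]
            rw [Subsingleton.elim w 0, QuadraticMap.map_zero]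
            exact fun h => hc h.symm
          rw [h4, Set.ncard_empty]
        refine ⟨?_, fun c hc => ?_⟩
        · rw [ncard_hyp hQ h, hz, e1]
          simp
          omega
        · rw [ncard_hyp hQ h, hc0 c hc, e1]
          simp
          omega

/-- a totally singular subspace of half the dimension determines the number of singular vectors -/
theorem plus_of_ts {F : Type u} [Field F] [Finite F] (m : ℕ) :
    ∀ (V : Type v) [AddCommGroup V] [Module F V] [FiniteDimensional F V] (Q : QuadraticForm F V), Nondeg Q →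
      Module.finrank F V = 2 * m → ∀ T : Submodule F V, (∀ x ∈ T, Q x = 0) → Module.finrank F T = m →
      Nat.card F * {v : V | Q v = 0}.ncard + Nat.card F ^ m = Nat.card F ^ (2 * m) + Nat.card F ^ (m + 1) := by
  induction m with
  | zero =>
    intro V _ _ _ Q hQ hd T hT hTd
    have hsub : Subsingleton V := Module.finrank_zero_iff.1 hd
    rw [ncard_aniso (Q := Q) fun v _ => Subsingleton.elim _ _]
    simp
    ring
  | succ m ih =>
    intro V _ _ _ Q hQ hd T hT hTd
    have hq : 2 ≤ Nat.card F := Finite.one_lt_card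
    have : Nontrivial T := Module.nontrivial_of_finrank_pos (R := F) (by omega)
    obtain ⟨⟨x, hxT⟩, hx0'⟩ := exists_ne (0 : T)
    have hx0 : x ≠ 0 := fun h => hx0' (Subtype.ext h)
    obtain ⟨f, h⟩ := Cfsg.Agent.LieClassical.OrthTrans.exists_hyp hQ (hT x hxT) hx0
    have hWd := finrank_Wp (Q := Q) h
    -- the intersection of `T` with `Wp`
    let T' : Submodule F (Wp Q x f) := T.comap (Wp Q x f).subtype
    have hT' : ∀ w ∈ T', Qp Q x f w = 0 := fun w hw => hT w hw
    have hT'd : m ≤ Module.finrank F T' := by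
      let φ : T →ₗ[F] F := (polarBilin Q f).comp T.subtype
      have h1 := LinearMap.finrank_range_add_finrank_ker φ
      have h3 : Module.finrank F (LinearMap.range φ) ≤ 1 := by
        refine (Submodule.finrank_le _).trans ?_
        rw [Module.finrank_self]
      let ψ : LinearMap.ker φ →ₗ[F] T' :=
        { toFun := fun t => ⟨⟨t.1, mem_Wp.2 ⟨Cfsg.Agent.H75.OrthIdx.polar_eq_zero_of_ts hT hxT t.1.2, t.2⟩⟩, t.1.2⟩
          map_add' := fun _ _ => rfl
          map_smul' := fun _ _ => rfl }
      have hψ : Function.Injective ψ := by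
        intro a b hab
        apply Subtype.ext
        apply Subtype.ext
        exact congrArg (fun z : T' => ((z : Wp Q x f) : V)) hab
      have h4 := LinearMap.finrank_le_finrank_of_injective hψ
      omega
    have hT'u : Module.finrank F T' ≤ m := by
      have := Cfsg.Agent.H75.OrthIdx.finrank_ts_le (nondeg_Qp hQ h) hT'
      omega
    have hW := ih (Wp Q x f) (Qp Q x f) (nondeg_Qp hQ h) (by omega) T' hT' (by omega)
    have e1 : Module.finrank F V - 2 = 2 * m := by omega
    rw [ncard_hyp hQ h, e1]
    obtain ⟨q', hq'⟩ : ∃ q', Nat.card F = q' + 1 := ⟨Nat.card F - 1, by omega⟩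
    rw [hq'] at hW ⊢
    rw [Nat.add_sub_cancel]
    have e2 : (q' + 1) ^ (2 * (m + 1)) = (q' + 1) * ((q' + 1) * (q' + 1) ^ (2 * m)) := by ring
    have e3 : (q' + 1) ^ (m + 1) = (q' + 1) * (q' + 1) ^ m := by ring
    have e4 : (q' + 1) ^ (m + 1 + 1) = (q' + 1) * ((q' + 1) * (q' + 1) ^ m) := by ring
    rw [e2, e3, e4]
    rw [e3] at hW
    have h6 := congrArg (fun x => (q' + 1) * x) hW
    simp only [mul_add] at h6
    linarith

end Cfsg.Agent.H63.IF
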