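import Cfsg.Agent.H63.IF.PlusThree
import Cfsg.Agent.H63.IF.Counts
import Cfsg.Agent.H76.MainFour

/-!
# A proper subgroup of `E Q` has index at least `q ^ (dim - 2)`, odd characteristic, `dim ≥ 7` (helper63)
-/

set_option autoImplicit false

namespace Cfsg.Agent.H63.IF

open QuadraticMap Cfsg.Agent.LieClassical.OrthCore Cfsg.Agent.LieClassical.OrthTrans
open Cfsg.Agent.LieClassical.OrthFinite Cfsg.Agent.H75.OrthIdx

variable {F V : Type*} [Field F] [AddCommGroup V] [Module F V] {Q : QuadraticForm F V}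
variable [Finite F] [FiniteDimensional F V]

omit [FiniteDimensional F V] in
theorem three_le_card (h2 : (2 : F) ≠ 0) : 3 ≤ Nat.card F := by
  by_contra h
  have h1 : 2 ≤ Nat.card F := Finite.one_lt_card
  have h3 : Nat.card F = 2 := by omega
  have := Fintype.ofFinite F
  apply h2
  have h4 := Nat.cast_card_eq_zero F
  rw [← Nat.card_eq_fintype_card, h3] at h4
  exact_mod_cast h4

theorem rel_bound (h2 : (2 : F) ≠ 0) (hQ : Nondeg Q) (h7 : 7 ≤ Module.finrank F V)
    {H : Subgroup (V ≃ₗ[F] V)} (hHE : H ≤ E Q) (hne : ¬ E Q ≤ H) :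
    Nat.card F ^ (Module.finrank F V - 2) ≤ H.relIndex (E Q) := by
  have hV : Finite V := Module.finite_of_finite F
  have hG : Good Q := good_of_finite hQ (by omega)
  have hq3 := three_le_card (F := F) h2
  have hC := counts (F := F) (Module.finrank F V) V Q hQ rfl
  obtain ⟨m, hm | hm⟩ := Nat.even_or_odd' (Module.finrank F V)
  · obtain ⟨r, rfl⟩ : ∃ r, m = r + 1 := ⟨m - 1, by omega⟩
    have er : r + 1 - 1 = r := by omega
    have er2 : 2 * (r + 1) - 1 = 2 * r + 1 := by omega
    rcases hC.2 r (by omega) with ⟨h0, h1⟩ | ⟨h0, h1⟩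
    · have hP : PlusCount Q (r + 1) := ⟨hm, by omega, by rw [er, er2]; exact h0, fun c hc => by
        rw [er, er2]; exact h1 c hc⟩
      rw [hm]
      exact plus_lower' hG hP h2 hq3 hHE hne
    · have hM : Cfsg.Agent.H76.Num.MinusCount Q (r + 1) := ⟨hm, by omega, by rw [er, er2]; exact h0, fun c hc => by
        rw [er, er2]; exact h1 c hc, by
          intro T hT
          have h3 := finrank_ts_le hQ hT
          by_contra hcon
          have h4 : Module.finrank F T = r + 1 := by omega
          have h5 := plus_of_ts (F := F) (r + 1) V Q hQ hm T hT h4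
          have h6 := congrArg (fun x => Nat.card F * x) h0
          simp only [mul_add] at h6
          have e1 : Nat.card F * Nat.card F ^ (r + 1) = Nat.card F ^ (r + 1 + 1) := by ring
          have e2 : Nat.card F * Nat.card F ^ (2 * r + 1) = Nat.card F ^ (2 * (r + 1)) := by ring
          have e3 : Nat.card F * Nat.card F ^ r = Nat.card F ^ (r + 1) := by ring
          rw [e1, e2, e3] at h6
          have h8 : Nat.card F ^ (r + 1) < Nat.card F ^ (r + 1 + 1) := Nat.pow_lt_pow_right (by omega) (by omega)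
          omega⟩
      have h3 := Cfsg.Agent.H76.MainFour.lower hG hM (by omega) hHE hne
      rw [Cfsg.Agent.H76.Lower.bd] at h3
      rw [hm]
      set n := H.relIndex (E Q)
      rw [er] at h3
      have e1 : 2 * (r + 1) - 2 = r + r := by omega
      rw [e1, pow_add]
      have e4 : Nat.card F ^ (r + 1) = Nat.card F * Nat.card F ^ r := by ring
      rw [e4] at h3
      have hb : 3 ≤ Nat.card F ^ r := by
        calc 3 ≤ Nat.card F ^ 1 := by rw [pow_one]; exact hq3
          _ ≤ _ := Nat.pow_le_pow_right (by omega) (by omega)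
      have hb2 : Nat.card F + 1 ≤ Nat.card F ^ r := by
        calc Nat.card F + 1 ≤ Nat.card F ^ 2 := by nlinarith
          _ ≤ _ := Nat.pow_le_pow_right (by omega) (by omega)
      set b := Nat.card F ^ r
      obtain ⟨q', hq'⟩ : ∃ q', Nat.card F = q' + 1 := ⟨Nat.card F - 1, by omega⟩
      obtain ⟨b', hb'⟩ : ∃ b', b = b' + 1 := ⟨b - 1, by omega⟩
      rw [hq', hb', Nat.add_sub_cancel, Nat.add_sub_cancel] at h3
      rw [hq'] at hq3 hb2
      rw [hb'] at hb2 ⊢
      by_contra hcon
      push Not at hcon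
      have h4 : n + 1 ≤ (b' + 1) * (b' + 1) := hcon
      nlinarith [Nat.mul_le_mul_left q' h4]
  · have hO : OddCount Q m := ⟨hm, by omega, h2, (hC.1 m hm).1, (hC.1 m hm).2⟩
    have h3 := odd_lower hG hO hHE hne
    rw [hm]
    set n := H.relIndex (E Q)
    obtain ⟨r, rfl⟩ : ∃ r, m = r + 1 := ⟨m - 1, by omega⟩
    have e1 : 2 * (r + 1) + 1 - 2 = 2 * r + 1 := by omega
    have e2 : Nat.card F ^ (2 * (r + 1)) = Nat.card F * Nat.card F ^ (2 * r + 1) := by ring
    have e3 : Nat.card F ^ (r + 1) ≤ Nat.card F ^ (2 * r + 1) := Nat.pow_le_pow_right (by omega) (by omega)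
    rw [e1]
    rw [e2] at h3
    set P := Nat.card F ^ (2 * r + 1)
    have hP : 1 ≤ P := Nat.one_le_pow _ _ (by omega)
    by_contra hcon
    push Not at hcon
    rcases h3 with h3 | h3
    · obtain ⟨q', hq'⟩ : ∃ q', Nat.card F = q' + 1 := ⟨Nat.card F - 1, by omega⟩
      rw [hq', Nat.add_sub_cancel] at h3
      rw [hq'] at hq3
      nlinarith [Nat.mul_le_mul_left q' (show n + 1 ≤ P from hcon)]
    · have h4 : 3 * P ≤ Nat.card F * P := Nat.mul_le_mul_right _ hq3
      omega

/-- **MININDEX**: `q` odd, `Q` nondegenerate in dimension `≥ 7` -/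
theorem min_index (h2 : (2 : F) ≠ 0) (hQ : Nondeg Q) (h7 : 7 ≤ Module.finrank F V) (H : Subgroup ↥(E Q))
    (hH : H ≠ ⊤) : Nat.card F ^ (Module.finrank F V - 2) ≤ H.index := by
  have h3 := rel_bound h2 hQ h7 (H := H.map (E Q).subtype) (by
    rintro _ ⟨x, -, rfl⟩
    exact x.2) (by
    intro hle
    apply hH
    rw [eq_top_iff]
    intro x _
    obtain ⟨y, hy, hyx⟩ := hle x.2
    have : y = x := Subtype.ext hyx
    rw [← this]; exact hy)
  have h4 : (H.map (E Q).subtype).subgroupOf (E Q) = H := by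
    rw [Subgroup.subgroupOf, Subgroup.comap_map_eq_self_of_injective (Subgroup.subtype_injective _)]
  rw [Subgroup.relIndex, h4] at h3
  exact h3

end Cfsg.Agent.H63.IF
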