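import Cfsg.Agent.H75.PlusGeo
import Cfsg.Agent.H75.PlusFinal

/-!
# Plus type, odd characteristic: a proper subgroup of `E Q` has index at least `q ^ (2 m - 2)` (helper63)

Adapted from `H75/PlusMain`, `PlusGeo`, `PlusFinal` (there `q ≥ 4`); under the weaker hypothesis
`index < q ^ (2 m - 2)` the argument works for `q = 3` and there is no exceptional case.
-/

set_option autoImplicit false

namespace Cfsg.Agent.H63.IF

open QuadraticMap Cfsg.Agent.LieClassical.OrthCore Cfsg.Agent.LieClassical.OrthTrans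
open Cfsg.Agent.H75.OrthIdx

section arith

theorem aux1 {s t n β VS D : ℕ} (h1 : VS ≤ t * β) (h2 : s * t ≤ n) (h4 : s * β = D) :
    VS * D ≤ n * (β * β) := by
  calc VS * D = (s * β) * VS := by rw [h4]; ring
    _ ≤ (s * β) * (t * β) := Nat.mul_le_mul_left _ h1
    _ = (s * t) * (β * β) := by ring
    _ ≤ n * (β * β) := Nat.mul_le_mul_right _ h2

theorem A1 {q s t n β VS Y : ℕ} (hq : 3 ≤ q) (hY : 1 ≤ Y)
    (h1 : VS ≤ t * β) (h2 : s * t ≤ n)
    (h3 : n < Y * Y) (h4 : s * β = q * (Y * Y))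
    (hVS : Y * Y ≤ VS) (hβ : β ≤ Y) : False := by
  have h5 := aux1 h1 h2 h4
  have hβ2 : β * β ≤ Y * Y := Nat.mul_le_mul hβ hβ
  have hYY : 0 < Y * Y := Nat.mul_pos hY hY
  have h6 : (Y * Y) * (q * (Y * Y)) ≤ VS * (q * (Y * Y)) := Nat.mul_le_mul_right _ hVS
  have h7 : n * (β * β) ≤ n * (Y * Y) := Nat.mul_le_mul_left _ hβ2
  have h8 : n * (Y * Y) < (Y * Y) * (Y * Y) := Nat.mul_lt_mul_of_pos_right h3 hYY
  have h9 : (Y * Y) * (Y * Y) ≤ (Y * Y) * (q * (Y * Y)) :=
    Nat.mul_le_mul_left _ (Nat.le_mul_of_pos_left _ (by omega))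
  omega

theorem A2 {q p s t n β VS Y K : ℕ} (hq : 3 ≤ q) (hY : 9 ≤ Y)
    (h1 : VS ≤ t * β) (h2 : s * t ≤ n)
    (h3 : n < Y * Y) (h4 : s * β = q * (Y * Y))
    (hVS : 4 * ((q - 1) * K) ≤ p * p * VS) (hK : K = Y * (Y - 1))
    (hβ : p * β ≤ q * Y) : False := by
  obtain ⟨q', rfl⟩ : ∃ q', q = q' + 3 := ⟨q - 3, by omega⟩
  rw [show q' + 3 - 1 = q' + 2 by omega] at *
  obtain ⟨y, rfl⟩ : ∃ y, Y = y + 1 := ⟨Y - 1, by omega⟩
  rw [Nat.add_sub_cancel] at hK
  have h5 := aux1 h1 h2 h4
  have h6 : (4 * (q' + 2) * y) * ((q' + 3) * (y + 1) * ((y + 1) * (y + 1))) <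
      ((q' + 3) * (y + 1)) * ((q' + 3) * (y + 1) * ((y + 1) * (y + 1))) := by
    calc (4 * (q' + 2) * y) * ((q' + 3) * (y + 1) * ((y + 1) * (y + 1)))
        = ((q' + 3) * ((y + 1) * (y + 1))) * (4 * ((q' + 2) * K)) := by rw [hK]; ring
      _ ≤ ((q' + 3) * ((y + 1) * (y + 1))) * (p * p * VS) := Nat.mul_le_mul_left _ hVS
      _ = p * p * (VS * ((q' + 3) * ((y + 1) * (y + 1)))) := by ring
      _ ≤ p * p * (n * (β * β)) := Nat.mul_le_mul_left _ h5
      _ = ((p * β) * (p * β)) * n := by ring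
      _ ≤ (((q' + 3) * (y + 1)) * ((q' + 3) * (y + 1))) * n :=
          Nat.mul_le_mul_right _ (Nat.mul_le_mul hβ hβ)
      _ < (((q' + 3) * (y + 1)) * ((q' + 3) * (y + 1))) * ((y + 1) * (y + 1)) :=
          Nat.mul_lt_mul_of_pos_left h3 (by positivity)
      _ = _ := by ring
  have h7 := lt_of_mul_lt_mul_right h6 (Nat.zero_le _)
  have hy : 8 ≤ y := by omega
  nlinarith [Nat.zero_le (q' * y), Nat.mul_le_mul_left q' hy]

theorem A3 {q p s t n β VS M Y u : ℕ} (hq : 3 ≤ q) (hp : 2 ≤ p) (hu : q ^ 2 ≤ u)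
    (hYu : Y = q * u) (h1 : VS * M ≤ t * (β * β)) (h2 : s * t ≤ n)
    (h3 : n < Y * Y) (h4 : s * β = q * (Y * Y))
    (hVS : Y * Y ≤ VS) (hM : Y * u ≤ M) (hβ : p * β ≤ q * Y) : False := by
  have hu0 : 0 < u := lt_of_lt_of_le (by positivity) hu
  have hY0 : 0 < Y := by rw [hYu]; positivity
  have h8 : 1 ≤ p * p * p := Nat.mul_pos (Nat.mul_pos (by omega) (by omega)) (by omega)
  have h6 : u * (q * Y * Y * Y * (Y * Y)) < q ^ 2 * (q * Y * Y * Y * (Y * Y)) := by
    calc u * (q * Y * Y * Y * (Y * Y))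
        = 1 * ((q * (Y * Y)) * ((Y * Y) * (Y * u))) := by ring
      _ ≤ (p * p * p) * ((q * (Y * Y)) * (VS * M)) :=
          Nat.mul_le_mul h8 (Nat.mul_le_mul_left _ (Nat.mul_le_mul hVS hM))
      _ ≤ (p * p * p) * ((q * (Y * Y)) * (t * (β * β))) :=
          Nat.mul_le_mul_left _ (Nat.mul_le_mul_left _ h1)
      _ = ((p * β) * (p * β) * (p * β)) * (s * t) := by rw [← h4]; ring
      _ ≤ ((q * Y) * (q * Y) * (q * Y)) * n :=
          Nat.mul_le_mul (Nat.mul_le_mul (Nat.mul_le_mul hβ hβ) hβ) h2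
      _ < ((q * Y) * (q * Y) * (q * Y)) * (Y * Y) :=
          Nat.mul_lt_mul_of_pos_left h3 (by positivity)
      _ = _ := by ring
  have h7 := lt_of_mul_lt_mul_right h6 (Nat.zero_le _)
  omega

theorem A4 {q p s t n a VS M Y u : ℕ} (hq : 3 ≤ q) (hp : 2 ≤ p) (hu : q ^ 2 ≤ u)
    (hYu : Y = q * u) (h1 : VS * M ≤ t * (a * a)) (h2 : s * t ≤ n) (_hs : 0 < s)
    (h3 : n < Y * Y) (ha : a = q * s)
    (hVS : Y * Y ≤ VS) (hM : Y * u ≤ M) (hβ : p * s ≤ Y) : False := by
  have hu0 : 0 < u := lt_of_lt_of_le (by positivity) hu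
  have hY0 : 0 < Y := by rw [hYu]; positivity
  have h6 : u * (Y * Y * Y) < q ^ 2 * (Y * Y * Y) := by
    calc u * (Y * Y * Y)
        = 1 * ((Y * Y) * (Y * u)) := by ring
      _ ≤ p * (VS * M) := Nat.mul_le_mul (by omega) (Nat.mul_le_mul hVS hM)
      _ ≤ p * (t * (a * a)) := Nat.mul_le_mul_left _ h1
      _ = (p * s) * (q ^ 2 * (s * t)) := by rw [ha]; ring
      _ ≤ Y * (q ^ 2 * n) := Nat.mul_le_mul hβ (Nat.mul_le_mul_left _ h2)
      _ < Y * (q ^ 2 * (Y * Y)) :=
          Nat.mul_lt_mul_of_pos_left (Nat.mul_lt_mul_of_pos_left h3 (by positivity)) hY0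
      _ = _ := by ring
  have h7 := lt_of_mul_lt_mul_right h6 (Nat.zero_le _)
  omega

theorem A5 {q s t n a K Y u : ℕ} (hq : 3 ≤ q) (hu : q ^ 2 ≤ u)
    (hYu : Y = q * u) (h2 : s * t ≤ n) (hs : 0 < s)
    (h3 : n < Y * Y) (ha : a = q * s)
    (hK : K = Y * (Y - 1)) (h1 : (q - 1) * K * ((q - 1) * u ^ 2) ≤ t * (a * a))
    (hsY : s ≤ Y) : False := by
  obtain ⟨q', rfl⟩ : ∃ q', q = q' + 3 := ⟨q - 3, by omega⟩
  rw [show q' + 3 - 1 = q' + 2 by omega] at *
  have hu0 : 0 < u := lt_of_lt_of_le (by positivity) hu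
  have hY27 : 27 ≤ Y := by
    rw [hYu]
    have h16 : 9 ≤ u := by nlinarith
    calc 27 = 3 * 9 := by norm_num
      _ ≤ _ := Nat.mul_le_mul (by omega) h16
  obtain ⟨y, hy⟩ : ∃ y, Y = y + 1 := ⟨Y - 1, by omega⟩
  have hK' : K = Y * y := by rw [hK, hy, Nat.add_sub_cancel]
  have h6 : ((q' + 2) ^ 2 * y * u) * (Y * u) < ((q' + 3) ^ 3 * Y) * (Y * u) := by
    calc ((q' + 2) ^ 2 * y * u) * (Y * u)
        = (q' + 2) * K * ((q' + 2) * u ^ 2) := by rw [hK']; ring
      _ ≤ t * (a * a) := h1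
      _ = s * (q' + 3) ^ 2 * (s * t) := by rw [ha]; ring
      _ ≤ Y * (q' + 3) ^ 2 * n := Nat.mul_le_mul (Nat.mul_le_mul_right _ hsY) h2
      _ < Y * (q' + 3) ^ 2 * (Y * Y) := Nat.mul_lt_mul_of_pos_left h3 (by positivity)
      _ = (q' + 3) ^ 2 * Y * Y * Y := by ring
      _ = (q' + 3) ^ 2 * Y * Y * ((q' + 3) * u) := by rw [← hYu]
      _ = _ := by ring
  have h9 := lt_of_mul_lt_mul_right h6 (Nat.zero_le _)
  have h10 : (q' + 2) ^ 2 * y * (q' + 3) ^ 2 ≤ (q' + 2) ^ 2 * y * u := Nat.mul_le_mul_left _ hu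
  have h11 : ((q' + 2) ^ 2 * y) * (q' + 3) ^ 2 < ((q' + 3) * Y) * (q' + 3) ^ 2 := by
    calc _ ≤ _ := h10
      _ < _ := h9
      _ = _ := by ring
  have h12 := lt_of_mul_lt_mul_right h11 (Nat.zero_le _)
  rw [hy] at h12
  have hy63 : 26 ≤ y := by omega
  have e1 : (q' + 2) ^ 2 * y = q' ^ 2 * y + 4 * (q' * y) + 4 * y := by ring
  have e2 : (q' + 3) * (y + 1) = q' * y + 3 * y + q' + 3 := by ring
  rw [e1, e2] at h12
  have e4 : q' * 26 ≤ q' * y := Nat.mul_le_mul_left _ hy63
  omega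

theorem A6 {q t n VS M Y u : ℕ} (hq : 3 ≤ q) (hu : q ^ 2 ≤ u)
    (hYu : Y = q * u) (h1 : VS * M ≤ t * ((q * Y) * (q * Y))) (h2 : Y * t ≤ n)
    (h3 : n < Y * Y)
    (hVS : Y * Y ≤ VS) (hM : Y * u ≤ M) : False := by
  have hu0 : 0 < u := lt_of_lt_of_le (by positivity) hu
  have hY0 : 0 < Y := by rw [hYu]; positivity
  have h6 : u * (Y * Y * Y * Y) < q ^ 2 * (Y * Y * Y * Y) := by
    calc u * (Y * Y * Y * Y)
        = Y * ((Y * Y) * (Y * u)) := by ring
      _ ≤ Y * (VS * M) := Nat.mul_le_mul_left _ (Nat.mul_le_mul hVS hM)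
      _ ≤ Y * (t * ((q * Y) * (q * Y))) := Nat.mul_le_mul_left _ h1
      _ = ((q * Y) * (q * Y)) * (Y * t) := by ring
      _ ≤ ((q * Y) * (q * Y)) * n := Nat.mul_le_mul_left _ h2
      _ < ((q * Y) * (q * Y)) * (Y * Y) := Nat.mul_lt_mul_of_pos_left h3 (by positivity)
      _ = _ := by ring
  have h9 := lt_of_mul_lt_mul_right h6 (Nat.zero_le _)
  omega

end arith

variable {F V : Type*} [Field F] [AddCommGroup V] [Module F V] {Q : QuadraticForm F V}

section fin

variable [Finite F] [FiniteDimensional F V]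

set_option maxHeartbeats 2000000 in
/-- The dichotomy for the dual of `Bs` in plus type. -/
theorem plus_dual' (hG : Good Q) {m : ℕ} (hC : PlusCount Q m) (hq3 : 3 ≤ Nat.card F)
    {p : ℕ} [hpp : Fact p.Prime]
    (θ : F →+ ZMod p) (hpF : p ∣ Nat.card F)
    (hθ : ∀ x : F, x ≠ 0 → ∃ c : F, θ (c * x) ≠ 0)
    (hcard : ∀ B : AddSubgroup V, Nat.card (dl Q θ B) * Nat.card B = Nat.card V)
    (hdd : ∀ B : AddSubgroup V, dl Q θ (dl Q θ B) = B)
    {H : Subgroup (V ≃ₗ[F] V)}
    (hH : H.relIndex (E Q) < Nat.card F ^ (2 * m - 2))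
    {e f : V} (h : Hyp Q e f) {v : V} (hv : v ∈ Bs Q H e) (hvn : v ∉ Submodule.span F {e}) :
    ∃ a ∈ dl Q θ (Bs Q H e), ∀ x ∈ dl Q θ (Bs Q H e), x ∈ Submodule.span F {e, a} := by
  classical
  have : Finite V := Module.finite_of_finite F
  have hm := hC.four
  have hd := hC.finrank
  have hQ := hG.nondeg
  have he0 : e ≠ 0 := h.left_ne
  set q := Nat.card F with hq
  obtain ⟨k, hk0, hqk⟩ : ∃ k, 0 < k ∧ q = p ^ k := by
    have := Fintype.ofFinite F
    obtain ⟨p', hp'⟩ := CharP.exists F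
    obtain ⟨n, hprime, hn⟩ := FiniteField.card F p'
    rw [← Nat.card_eq_fintype_card, ← hq] at hn
    rw [hn] at hpF
    have h1 := hpp.out.dvd_of_dvd_pow hpF
    have h2 := (Nat.prime_dvd_prime_iff_eq hpp.out hprime).1 h1
    exact ⟨n, n.pos, by rw [hn, h2]⟩
  have hp2 : 2 ≤ p := hpp.out.two_le
  have hpq : p ≤ q := Nat.le_of_dvd (by omega) hpF
  set u := q ^ (m - 2) with hu
  set Y := q * u with hYu
  obtain ⟨r, hr⟩ : ∃ r, m = r + 4 := ⟨m - 4, by omega⟩
  have hYm : Y = q ^ (m - 1) := by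
    rw [hYu, hu, ← pow_succ']; congr 1; omega
  have hqYm : q * Y = q ^ m := by
    rw [hYm, ← pow_succ']; congr 1; omega
  have hqYY : q ^ (2 * m - 1) = q * (Y * Y) := by
    rw [hYm, ← pow_add, ← pow_succ']; congr 1; omega
  have hYY : q ^ (2 * m - 2) = Y * Y := by
    rw [hYm, ← pow_add]; congr 1; omega
  rw [hYY] at hH
  have hu2 : q ^ 2 ≤ u := Nat.pow_le_pow_right (by omega) (by omega)
  have hu9 : 9 ≤ u := by nlinarith
  have hY27 : 27 ≤ Y := by
    rw [hYu]
    calc 27 = 3 * 9 := by norm_num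
      _ ≤ _ := Nat.mul_le_mul hq3 hu9
  obtain ⟨hK, hVS, hM⟩ := hC.data hQ h hu hYu
  rw [← hq] at hVS hM
  have hVS' : ∀ w : V, Q w = 0 → Y * Y ≤ (VecSet Q e w).ncard := by
    intro w hw
    have h1 := hVS w hw
    have h2 : q ≤ (q - 1) * Y := by
      obtain ⟨q', hq'⟩ : ∃ q', q = q' + 3 := ⟨q - 3, by omega⟩
      rw [hq', show q' + 3 - 1 = q' + 2 by omega]
      nlinarith [Nat.mul_le_mul_left q' hY27]
    omega
  have hMle : Y * u ≤ Y * u + (q - 1) * Y - q ^ 2 := by
    have h1 : q ^ 2 ≤ (q - 1) * Y := by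
      have h2 : q ^ 2 ≤ Y := hu2.trans (Nat.le_mul_of_pos_left _ (by omega))
      calc q ^ 2 ≤ 1 * Y := by omega
        _ ≤ _ := Nat.mul_le_mul_right _ (by omega)
    omega
  set B := Bs Q H e with hB
  set A := dl Q θ B with hA
  set s := H.relIndex (rad Q e) with hs
  set t := (Nst Q H e).relIndex (Pst Q e) with ht
  set n := H.relIndex (E Q) with hn
  have hst : s * t ≤ n := relIndex_ge h.left H
  have hsβ : s * Nat.card B = q * (Y * Y) := by
    have h1 := relIndex_rad_mul hQ he0 H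
    rw [hd, ← hq, hqYY] at h1
    exact h1
  have haβ : Nat.card A * Nat.card B = q * (q * (Y * Y)) := by
    have h1 := hcard B
    rw [Module.natCard_eq_pow_finrank (K := F) (V := V), hd, ← hq,
      show 2 * m = (2 * m - 1) + 1 by omega, pow_succ', hqYY] at h1
    exact h1
  have hβpos : 0 < Nat.card B := Nat.card_pos
  have haqs : Nat.card A = q * s := by
    have h1 : Nat.card A * Nat.card B = (q * s) * Nat.card B := by
      rw [haβ, ← hsβ]; ring
    exact Nat.eq_of_mul_eq_mul_right hβpos h1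
  have hspos : 0 < s := Nat.pos_of_ne_zero (relIndex_ne _ _)
  have hd4 : q ^ (Module.finrank F V - 4) = u ^ 2 := by
    rw [hd, hu, ← pow_mul]; congr 1; omega
  have hBe : ∀ x ∈ B, polar Q e x = 0 := fun x hx => hx.1
  have hAe : ∀ x ∈ A, polar Q e x = 0 := fun x hx => dl_perp hθ h.left hx
  -- powers of `p`
  have hBp : ∃ j, Nat.card B = p ^ j := by
    have h1 : Nat.card B ∣ p ^ (k * (2 * m - 1)) := by
      rw [pow_mul, ← hqk, hqYY, ← hsβ]
      exact dvd_mul_left _ _
    obtain ⟨j, -, hj⟩ := (Nat.dvd_prime_pow hpp.out).1 h1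
    exact ⟨j, hj⟩
  obtain ⟨j, hj⟩ := hBp
  have hYp : q * Y = p ^ (k * m) := by
    rw [hqYm, hqk, ← pow_mul]
  have hpow : ¬ p * Nat.card B ≤ q * Y → q * Y ≤ Nat.card B := by
    intro h1
    rw [hj, hYp] at h1 ⊢
    rw [← pow_succ'] at h1
    apply Nat.pow_le_pow_right (by omega)
    by_contra h2
    exact h1 (Nat.pow_le_pow_right (by omega) (by omega))
  -- lower bound for `|B|` from a nonsingular vector
  have hnons : ∀ w ∈ B, Q w ≠ 0 → q * Y ≤ Nat.card B := by
    intro w hw hwQ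
    apply hpow
    intro hcon
    have hwn : w ∉ Submodule.span F {e} := by
      intro hmem
      obtain ⟨c, rfl⟩ := Submodule.mem_span_singleton.1 hmem
      rw [QuadraticMap.map_smul, h.left, smul_zero] at hwQ
      exact hwQ rfl
    have h6 := vec_bound hG (by omega) h true (Nst Q H e) B (stab_Bs h) hw hw.1 hwn
    have h7 : (VecSet Q e w ∩ (B : Set V)).ncard ≤ Nat.card B :=
      Set.ncard_le_ncard Set.inter_subset_right (Set.toFinite _)
    have h8 := h6.trans (Nat.mul_le_mul_left _ h7)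
    exact A2 hq3 (by omega) h8 hst hH hsβ (four_mul_le_vecSet hpp.out hqk he0 h.left hwQ hK) rfl
      hcon
  have hqY : Y < q * Y := by
    calc Y = 1 * Y := (one_mul Y).symm
      _ < q * Y := Nat.mul_lt_mul_of_pos_right (by omega) (by omega)
  have hBY : Y < Nat.card B := by
    by_cases hvQ : Q v = 0
    · by_contra hcon
      push Not at hcon
      have h6 := vec_bound hG (by omega) h true (Nst Q H e) B (stab_Bs h) hv hv.1 hvn
      have h7 : (VecSet Q e v ∩ (B : Set V)).ncard ≤ Nat.card B :=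
        Set.ncard_le_ncard Set.inter_subset_right (Set.toFinite _)
      have h8 := h6.trans (Nat.mul_le_mul_left _ h7)
      exact A1 hq3 (by omega) h8 hst hH hsβ (hVS' v hvQ) hcon
    · exact hqY.trans_le (hnons v hv hvQ)
  by_cases hBn : ∃ v1 ∈ B, Q v1 ≠ 0
  · -- case 2
    obtain ⟨v1, hv1, hv1Q⟩ := hBn
    have hβ := hnons v1 hv1 hv1Q
    have hsY : s ≤ Y := by
      have h1 : s * (q * Y) ≤ Y * (q * Y) := by
        calc s * (q * Y) ≤ s * Nat.card B := Nat.mul_le_mul_left _ hβ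
          _ = Y * (q * Y) := by rw [hsβ]; ring
      exact Nat.le_of_mul_le_mul_right h1 (by omega)
    by_contra hcon
    push Not at hcon
    by_cases hAn : ∃ a ∈ A, Q a ≠ 0
    · obtain ⟨a, ha, haQ⟩ := hAn
      have h6 := pair_bound' hG (by omega) h false (Nst Q H e) A
        (stab_dl h) hAe ha haQ (hcon a ha) hK
      rw [hd4, ← ht] at h6
      exact A5 hq3 hu2 hYu hst hspos hH haqs rfl h6 hsY
    · push Not at hAn
      -- two independent vectors of `A`
      have heA : e ∈ A := by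
        have h1 : (1 : F) • e ∈ dl Q θ (Bs Q H e) := self_smul_mem_dl (1 : F)
        rwa [one_smul] at h1
      obtain ⟨a1, ha1, ha1n⟩ := hcon e heA
      have ha1n' : a1 ∉ Submodule.span F {e} := by
        intro h1
        apply ha1n
        exact Submodule.span_mono (by simp) h1
      obtain ⟨a2, ha2, ha2n⟩ := hcon a1 ha1
      have hli2 := li2_of_notMem (F := F) he0 ha1n'
      have hli3 := li3_of_notMem hli2 ha2n
      have h6 := ts_pair_bound hG (by omega) h false (Nst Q H e) (A : Set V) (stab_dl h)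
        ha1 ha2 (hAe a1 ha1) (hAe a2 ha2) (hAn a1 ha1) (hAn a2 ha2)
        (addSubgroup_ts hAn ha1 ha2) hli3 hM.le
      have h7 := h6.trans (Nat.mul_le_mul_left _ (trivial_inter_le (F := F) A _))
      -- `s = Y`
      have hsp : ¬ p * s ≤ Y := fun h8 =>
        A4 hq3 hp2 hu2 hYu h7 hst hspos hH haqs (hVS' a1 (hAn a1 ha1)) hMle h8
      have hsY' : s = Y := by
        have h8 : q * Y = Nat.card B := by
          refine le_antisymm hβ ?_
          have h9 : ¬ p * (q * Y) ≤ Nat.card B := by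
            intro h9
            apply hsp
            have h10 : (p * s) * (q * Y) ≤ Y * (q * Y) := by
              calc (p * s) * (q * Y) = s * (p * (q * Y)) := by ring
                _ ≤ s * Nat.card B := Nat.mul_le_mul_left _ h9
                _ = Y * (q * Y) := by rw [hsβ]; ring
            exact Nat.le_of_mul_le_mul_right h10 (by omega)
          rw [hj, hYp] at h9 ⊢
          rw [← pow_succ'] at h9
          apply Nat.pow_le_pow_right (by omega)
          by_contra h10
          exact h9 (Nat.pow_le_pow_right (by omega) (by omega))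
        rw [← h8] at hsβ
        have h9 : s * (q * Y) = Y * (q * Y) := by rw [hsβ]; ring
        exact Nat.eq_of_mul_eq_mul_right (by omega) h9
      -- `A` is a maximal totally singular subspace
      set M := Submodule.span F (A : Set V) with hMdef
      have hMts : ∀ x ∈ M, Q x = 0 := span_ts hAn fun x hx y hy => addSubgroup_ts hAn hx hy
      have hMd : Module.finrank F M ≤ m := by
        have := finrank_ts_le hQ hMts
        omega
      have hAM : (A : Set V) ⊆ M := Submodule.subset_span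
      have hMc : Nat.card M = q ^ Module.finrank F M := by
        rw [Module.natCard_eq_pow_finrank (K := F) (V := M), ← hq]
      have hMA : Nat.card A ≤ Nat.card M :=
        Set.ncard_le_ncard (s := (A : Set V)) (t := (M : Set V)) hAM (Set.toFinite _)
      have hAc : Nat.card A = q ^ m := by rw [haqs, hsY', hqYm]
      have hMd' : Module.finrank F M = m := by
        rw [hMc, hAc] at hMA
        have := (Nat.pow_le_pow_iff_right (by omega : 1 < q)).1 hMA
        omega
      have hAeqM : (A : Set V) = (M : Set V) := by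
        apply Set.eq_of_subset_of_ncard_le hAM _ (Set.toFinite _)
        show Nat.card M ≤ Nat.card A
        rw [hMc, hMd', hAc]
      have hperp : perp Q M = M := by
        symm
        apply Submodule.eq_of_le_of_finrank_le (le_perp_of_ts hMts)
        have := finrank_perp_add hQ M
        omega
      have hv1M : v1 ∈ perp Q M := by
        intro x hx
        by_contra hne
        obtain ⟨c, hc⟩ := hθ _ hne
        apply hc
        have hcx : c • x ∈ A := by
          have : c • x ∈ (M : Set V) := M.smul_mem c hx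
          rw [← hAeqM] at this
          exact this
        have h8 : v1 ∈ dl Q θ (dl Q θ (Bs Q H e)) := by rw [hdd]; exact hv1
        have h9 := h8 _ hcx
        rwa [polar_smul_left, smul_eq_mul] at h9
      rw [hperp] at hv1M
      exact hv1Q (hMts _ hv1M)
  · -- case 1
    exfalso
    push Not at hBn
    have hsp : ∃ v2 ∈ B, v2 ∉ Submodule.span F {e, v} := by
      by_contra hcon
      push Not at hcon
      have h1 : Nat.card B ≤ Nat.card (Submodule.span F {e, v}) :=
        Set.ncard_le_ncard (s := (B : Set V)) (t := (Submodule.span F {e, v} : Set V)) hcon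
          (Set.toFinite _)
      rw [Module.natCard_eq_pow_finrank (K := F) (V := Submodule.span F {e, v}), ← hq] at h1
      have h2 : q ^ Module.finrank F (Submodule.span F {e, v}) ≤ q ^ 2 :=
        Nat.pow_le_pow_right (by omega) (finrank_span_pair_le (F := F) e v)
      have h3 : q ^ 2 ≤ Y := hu2.trans (Nat.le_mul_of_pos_left _ (by omega))
      omega
    obtain ⟨v2, hv2, hv2n⟩ := hsp
    have hli2 := li2_of_notMem (F := F) he0 hvn
    have hli3 := li3_of_notMem hli2 hv2n
    have h6 := ts_pair_bound hG (by omega) h true (Nst Q H e) (B : Set V) (stab_Bs h)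
      hv hv2 (hBe v hv) (hBe v2 hv2) (hBn v hv) (hBn v2 hv2)
      (addSubgroup_ts hBn hv hv2) hli3 hM.le
    have h7 := h6.trans (Nat.mul_le_mul_left _ (trivial_inter_le (F := F) B _))
    have hβ : q * Y ≤ Nat.card B := hpow fun h8 =>
      A3 hq3 hp2 hu2 hYu h7 hst hH hsβ (hVS' v (hBn v hv)) hMle h8
    set M := Submodule.span F (B : Set V) with hMdef
    have hMts : ∀ x ∈ M, Q x = 0 := span_ts hBn fun x hx y hy => addSubgroup_ts hBn hx hy
    have hMd : Module.finrank F M ≤ m := by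
      have := finrank_ts_le hQ hMts
      omega
    have hBM : (B : Set V) ⊆ M := Submodule.subset_span
    have hMc : Nat.card M = q ^ Module.finrank F M := by
      rw [Module.natCard_eq_pow_finrank (K := F) (V := M), ← hq]
    have hMB : Nat.card B ≤ Nat.card M :=
      Set.ncard_le_ncard (s := (B : Set V)) (t := (M : Set V)) hBM (Set.toFinite _)
    have hMd' : Module.finrank F M = m := by
      have h8 := hβ.trans hMB
      rw [hMc, hqYm] at h8
      have := (Nat.pow_le_pow_iff_right (by omega : 1 < q)).1 h8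
      omega
    have hBc : Nat.card B = q * Y := by
      apply le_antisymm _ hβ
      rw [hqYm, ← hMd', ← hMc]; exact hMB
    have hsc : s = Y := by
      rw [hBc] at hsβ
      have h9 : s * (q * Y) = Y * (q * Y) := by rw [hsβ]; ring
      exact Nat.eq_of_mul_eq_mul_right (by omega) h9
    rw [hBc] at h7
    rw [hsc] at hst
    exact A6 hq3 hu2 hYu h7 hst hH (hVS' v (hBn v hv)) hMle

/-- small points -/
theorem plus_typ' (hG : Good Q) {m : ℕ} (hC : PlusCount Q m) (hq3 : 3 ≤ Nat.card F)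
    {H : Subgroup (V ≃ₗ[F] V)} (hH : H.relIndex (E Q) < Nat.card F ^ (2 * m - 2))
    {e : V} (he : e ∈ PP Q H) : Small Q H e := by
  obtain ⟨he0, heQ, v, hv, hvn⟩ := he
  obtain ⟨f, h⟩ := exists_hyp hG.nondeg heQ he0
  obtain ⟨p, hp, θ, hpF, hθ, hcard, hdd⟩ := exists_dual (Q := Q) hG.nondeg
  have hle := Us_le_span hG.nondeg (hdd (Bs Q H e))
  obtain ⟨a, ha, h1⟩ := plus_dual' hG hC hq3 θ hpF hθ hcard hdd hH h hv hvn
  have hle' : Us Q H e ≤ Submodule.span F {e, a} := by
    refine hle.trans ?_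
    rw [Submodule.span_le]
    exact h1
  refine ⟨(Submodule.finrank_mono hle').trans (finrank_span_pair_le (F := F) e a), ?_⟩
  have hea := dl_perp hθ heQ ha
  by_cases haQ : Q a = 0
  · left
    intro x hx
    obtain ⟨s, t, rfl⟩ := Submodule.mem_span_pair.1 (hle' hx)
    rw [Q_add, QuadraticMap.map_smul, QuadraticMap.map_smul, heQ, haQ, polar_smul_left,
      polar_smul_right, hea]
    simp
  · right
    exact ⟨a, haQ, hea, hle'⟩

/-- **Lower bound in plus type, odd characteristic.** -/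
theorem plus_lower' (hG : Good Q) {m : ℕ} (hC : PlusCount Q m) (h2 : (2 : F) ≠ 0) (hq3 : 3 ≤ Nat.card F)
    {H : Subgroup (V ≃ₗ[F] V)} (hHE : H ≤ E Q) (hne : ¬ E Q ≤ H) :
    Nat.card F ^ (2 * m - 2) ≤ H.relIndex (E Q) := by
  classical
  have : Finite V := Module.finite_of_finite F
  by_contra hcon
  push Not at hcon
  have hQ := hG.nondeg
  have hd := hC.finrank
  have hm := hC.four
  have hS : ∀ e ∈ PP Q H, Small Q H e := fun e he => plus_typ' hG hC hq3 hcon he
  have hT : Typ Q H := fun e he => (hS e he).2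
  have hcom := com_of_small hQ (by omega) hS
  obtain ⟨r, hr⟩ : ∃ r, m = r + 1 := ⟨m - 1, by omega⟩
  have e1 : Nat.card F ^ (2 * m - 2) = Nat.card F ^ r * Nat.card F ^ r := by
    rw [← pow_add]; congr 1; omega
  have e2 : Nat.card F ^ (2 * m - 1) = Nat.card F * (Nat.card F ^ r * Nat.card F ^ r) := by
    rw [← pow_add, ← pow_succ']; congr 1; omega
  have e3 : Nat.card F ^ (m - 1) = Nat.card F ^ r := by congr 1; omega
  have e4 : Nat.card F ^ m = Nat.card F * Nat.card F ^ r := by rw [← pow_succ']; congr 1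
  have hb : 3 ≤ Nat.card F ^ r := by
    calc 3 ≤ Nat.card F ^ 1 := by rw [pow_one]; exact hq3
      _ ≤ _ := Nat.pow_le_pow_right (by omega) (by omega)
  have := Fintype.ofFinite F
  have hsing := ncard_ne_zero_sing Q
  have hzero := hC.zero
  rw [e2, e3, e4] at hzero
  rw [e1] at hcon
  obtain ⟨T, hT0, hTH, hTs | ⟨a, ha, rfl⟩⟩ := exists_stab hQ (by omega) hHE hne hcom hT
    (exists_PP_odd hG (by omega) h2 (by
      rw [hd, e1]
      omega))
  · -- totally singular
    obtain ⟨t, htT, ht0⟩ := (Submodule.ne_bot_iff T).1 hT0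
    have htQ := hTs t htT
    by_cases hT2 : 2 ≤ Module.finrank F T
    · obtain ⟨e, h⟩ := exists_hyp hQ htQ ht0
      have h1 := mem_PP_StT T hTs hT2 htT h
      have h2 := finrank_Ws_StT T htT h
      have h3 : (StT Q T).relIndex (E Q) ≤ H.relIndex (E Q) :=
        Subgroup.relIndex_le_of_le_left (le_StT hHE hTH) (relIndex_ne _ _)
      have h4 : (StT Q T).relIndex (E Q) < Nat.card F ^ (2 * m - 2) := by
        rw [e1]; exact lt_of_le_of_lt h3 hcon
      have h5 := finrank_ts_le hQ hTs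
      have h6 := finrank_perp_add hQ (Ws Q (StT Q T) e)
      have h10 : Module.finrank F (Us Q (StT Q T) e) =
        Module.finrank F (perp Q (Ws Q (StT Q T) e)) := rfl
      have h7 := (plus_typ' hG hC hq3 h4 h1).1
      omega
    · have hT1 : T = Submodule.span F {t} := by
        symm
        apply Submodule.eq_of_le_of_finrank_le
        · exact (Submodule.span_singleton_le_iff_mem _ _).2 htT
        · rw [finrank_span_singleton ht0]; omega
      have h1 := sing_point_bound hG hHE ht0 htQ (fun h hh => by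
        rw [← hT1]; exact hTH h hh t htT)
      set b := Nat.card F ^ r
      set n := H.relIndex (E Q)
      obtain ⟨q', hq'⟩ : ∃ q', Nat.card F = q' + 1 := ⟨Nat.card F - 1, by omega⟩
      rw [hq', Nat.add_sub_cancel] at h1
      rw [hq'] at hzero hq3
      have h5 : n * q' < (b * b) * q' := Nat.mul_lt_mul_of_pos_right hcon (by omega)
      have h6 : (q' + 1) * (b * b) = (b * b) * q' + b * b := by ring
      have h7 : (q' + 1) * b = q' * b + b := by ring
      have h8 : 3 * 3 ≤ b * b := Nat.mul_le_mul hb hb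
      omega
  · have h1 := nonsing_point_bound hG hHE ha (fun h hh =>
      hTH h hh a (Submodule.mem_span_singleton_self a))
    have h3 := hC.ne_zero (Q a) ha
    rw [e2, e3] at h3
    set b := Nat.card F ^ r
    set n := H.relIndex (E Q)
    have h5 : 3 * (b * b) ≤ Nat.card F * (b * b) := Nat.mul_le_mul_right _ hq3
    have h6 : 3 * b ≤ b * b := Nat.mul_le_mul_right _ hb
    omega

end fin

end Cfsg.Agent.H63.IF
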